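import Cfsg.Agent.H773.Pw.Spor
import Cfsg.Agent.H843.N29
import Cfsg.Agent.S1698

/-!
# S2454, the row `Fi24'` (helper801, for helper773)

The element `x` of order 29 of `H843.D29` (its centralizer in `Fi24` has order 29) is a product of two `p`-elements of
`Fi24'` for every prime `p ≠ 29` dividing the order (explicit words, found by a random search); the degrees are `≥ 15`
(Feit, the prime 29), and `28 ^ 6 < 15 ^ 8`.
-/

set_option autoImplicit false
set_option maxRecDepth 100000
set_option linter.constructorNameAsVariable false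

namespace Cfsg.Agent.H801.Pw.FiTF

open Cfsg Subgroup Cfsg.Agent.H514.DP Cfsg.Agent.H773.Pw
open Cfsg.Agent.Lib.PermNet Cfsg.Agent.Lib.PermNetPt Cfsg.Agent.Fischer.Fi24RepDef Cfsg.Agent.Fischer.Fi24Rep
open Cfsg.Agent.Fischer.Fi24Spider (word_append word_cons word_nil)
open Cfsg.Agent.R08.FiTwentyFour (finite_Fi24 mem_commutator_iff gen_mem_L sgn_L)
open Cfsg.Agent.KFacts.FiTF.Pts Cfsg.Agent.KFacts.FiTF.FixMask Cfsg.Agent.H843.Pat Cfsg.Agent.H843.Fi24N
open Cfsg.Spor (Fi24)
open Cfsg.Spor.Fi24 (Gen)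

local notation "xw" => Cfsg.Agent.H843.D29.xw

def a2 : List Gen := [.e, .g, .d, .c, .j, .d, .b, .h, .b, .e, .l, .d, .e, .j, .a, .c]

def a3 : List Gen := [.h, .k, .c, .d, .c, .a, .b, .c, .d, .c, .k, .h]

def a5 : List Gen := [.c, .d, .h, .b, .c, .d, .i, .h, .a, .l, .b, .a, .b, .c, .d, .b, .l, .a, .h, .i, .d, .c, .b, .h, .d, .c]

def a7 : List Gen := [.g, .j, .f, .e, .c, .d]

def a11 : List Gen := [.d, .f, .e, .b, .a, .g, .c, .j, .i, .l, .i, .d, .h, .k]

def a13 : List Gen := [.a, .f, .k, .e, .d, .i, .c, .a, .h, .b]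

def a17 : List Gen := [.h, .l, .f, .k, .b, .g, .d, .a, .e, .c]

def a23 : List Gen := [.b, .f, .i, .h, .d, .h, .e, .g, .d, .g, .f, .a, .g, .c, .e, .k, .h, .d, .e, .b, .l, .c]

theorem ha2 : chkEq (rep 2 a2) [] = true := by decide +kernel

theorem hb2 : chkEq (rep 2 (a2.reverse ++ xw)) [] = true := by decide +kernel

theorem ha3 : chkEq (rep 3 a3) [] = true := by decide +kernel

theorem hb3 : chkEq (rep 27 (a3.reverse ++ xw)) [] = true := by decide +kernel

theorem ha5 : chkEq (rep 5 a5) [] = true := by decide +kernel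

theorem hb5 : chkEq (rep 5 (a5.reverse ++ xw)) [] = true := by decide +kernel

theorem ha7 : chkEq (rep 7 a7) [] = true := by decide +kernel

theorem hb7 : chkEq (rep 7 (a7.reverse ++ xw)) [] = true := by decide +kernel

theorem ha11 : chkEq (rep 11 a11) [] = true := by decide +kernel

theorem hb11 : chkEq (rep 11 (a11.reverse ++ xw)) [] = true := by decide +kernel

theorem ha13 : chkEq (rep 13 a13) [] = true := by decide +kernel

theorem hb13 : chkEq (rep 13 (a13.reverse ++ xw)) [] = true := by decide +kernel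

theorem ha17 : chkEq (rep 17 a17) [] = true := by decide +kernel

theorem hb17 : chkEq (rep 17 (a17.reverse ++ xw)) [] = true := by decide +kernel

theorem ha23 : chkEq (rep 23 a23) [] = true := by decide +kernel

theorem hb23 : chkEq (rep 23 (a23.reverse ++ xw)) [] = true := by decide +kernel

theorem word_mem : ∀ l : List Gen, Even l.length → word l ∈ commutator Fi24
  | [], _ => by rw [word_nil]; exact one_mem _
  | [x], h => absurd h (by simp)
  | x :: y :: l, h => by
    rw [word_cons, word_cons, ← mul_assoc]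
    refine mul_mem (Cfsg.Agent.R08.FiTwentyFour.mul_mem_commutator (gen_mem_L x) (gen_mem_L y)) (word_mem l ?_)
    simpa [Nat.even_add_one] using h

theorem x_mem : word xw ∈ commutator Fi24 := word_mem _ (by decide)

/-- the element of order 29 -/
noncomputable def y0 : Spor.Fi24' := ⟨word xw, x_mem⟩

theorem orderOf_y0 : orderOf y0 = 29 := by
  have h : orderOf ((y0 : Spor.Fi24') : Fi24) = orderOf y0 := Subgroup.orderOf_coe y0
  rw [← h]
  exact Cfsg.Agent.H843.D29.order

theorem pe {p k : ℕ} {a : List Gen} (hev : Even a.length) (h1 : chkEq (rep p a) [] = true)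
    (h2 : chkEq (rep (p ^ k) (a.reverse ++ xw)) [] = true) : PE p 2 y0 := by
  have e1 : word a ^ p = 1 := by
    have := word_eq_of h1
    rwa [word_rep, word_nil] at this
  have e2 : ((word a)⁻¹ * word xw) ^ p ^ k = 1 := by
    have := word_eq_of h2
    rwa [word_rep, word_append, word_reverse, word_nil] at this
  have ha := word_mem a hev
  set A : Spor.Fi24' := ⟨word a, ha⟩ with hA
  have f1 : IsPE p A := ⟨1, Subtype.ext (by rw [pow_one]; exact e1)⟩
  have f2 : IsPE p (A⁻¹ * y0) := ⟨k, Subtype.ext e2⟩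
  have := f1.pe.mul f2.pe
  rwa [mul_inv_cancel_left] at this

theorem prime_cases {p : ℕ} (hp : p.Prime) (h : p ∣ 1255205709190661721292800) :
    p = 2 ∨ p = 3 ∨ p = 5 ∨ p = 7 ∨ p = 11 ∨ p = 13 ∨ p = 17 ∨ p = 23 ∨ p = 29 := by
  have e : (1255205709190661721292800 : ℕ) = 2 ^ 21 * 3 ^ 16 * 5 ^ 2 * 7 ^ 3 * 11 * 13 * 17 * 23 * 29 := by norm_num
  rw [e] at h
  have key : ∀ q : ℕ, q.Prime → p ∣ q → p = q := fun q hq hd => (Nat.prime_dvd_prime_iff_eq hp hq).1 hd
  simp only [hp.dvd_mul] at h
  rcases h with (((((((h | h) | h) | h) | h) | h) | h) | h) | h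
  · exact Or.inl (key _ (by norm_num) (hp.dvd_of_dvd_pow h))
  · exact Or.inr (Or.inl (key _ (by norm_num) (hp.dvd_of_dvd_pow h)))
  · exact Or.inr (Or.inr (Or.inl (key _ (by norm_num) (hp.dvd_of_dvd_pow h))))
  · exact Or.inr (Or.inr (Or.inr (Or.inl (key _ (by norm_num) (hp.dvd_of_dvd_pow h)))))
  · exact Or.inr (Or.inr (Or.inr (Or.inr (Or.inl (key _ (by norm_num) h)))))
  · exact Or.inr (Or.inr (Or.inr (Or.inr (Or.inr (Or.inl (key _ (by norm_num) h))))))
  · exact Or.inr (Or.inr (Or.inr (Or.inr (Or.inr (Or.inr (Or.inl (key _ (by norm_num) h)))))))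
  · exact Or.inr (Or.inr (Or.inr (Or.inr (Or.inr (Or.inr (Or.inr (Or.inl (key _ (by norm_num) h))))))))
  · exact Or.inr (Or.inr (Or.inr (Or.inr (Or.inr (Or.inr (Or.inr (Or.inr (key _ (by norm_num) h))))))))

/-- **the row `Fi24'`** -/
theorem pw_fi24 {S : Type*} [Group S] [Finite S] [IsSimpleGroup S] (h : Spor.IsoFi24' S) {p : ℕ} (hp : p.Prime)
    (hd : p ∣ Nat.card S) : PW p 70 S := by
  obtain ⟨e⟩ := h
  have hfin := finite_Fi24
  have hcard : Nat.card S = 1255205709190661721292800 := (Nat.card_congr e.toEquiv).trans Cfsg.Agent.S1698.result.2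
  have hna : ¬ ∀ a b : S, a * b = b * a :=
    Cfsg.Agent.H253.TC.not_comm_of_card hcard (by norm_num) (p := 29) (by norm_num) (by norm_num) (by norm_num)
  have hD : MinDeg S 15 := minDeg_of_prime hcard (by norm_num) (l := 29) (by norm_num) (by norm_num) (by norm_num)
    (by norm_num) (by norm_num) (by norm_num) (by norm_num)
  have hc : Nat.card (centralizer ({e.symm y0} : Set S)) ≤ 29 := by
    refine (Cfsg.Agent.H253.TC.card_cent_le_of_inj ((commutator Fi24).subtype.comp e.toMonoidHom)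
      ((commutator Fi24).subtype_injective.comp e.injective) _).trans ?_
    have h1 : ((commutator Fi24).subtype.comp e.toMonoidHom) (e.symm y0) = word xw := by
      show ((e (e.symm y0) : Spor.Fi24') : Fi24) = _
      rw [e.apply_symm_apply]
      rfl
    rw [h1]
    refine le_of_eq (Eq.trans ?_ Cfsg.Agent.H843.D29.main.2)
    have h2 : centralizer ({word xw} : Set Fi24) =
        centralizer (zpowers (Cfsg.Agent.H843.D29.D.x) : Set Fi24) := by
      ext g
      rw [Cfsg.Agent.H843.Cyc.mem_centralizer_zpowers, mem_centralizer_singleton_iff]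
      exact Iff.rfl
    rw [h2]
  have fin : ∀ m : ℕ, m * 6 ≤ 70 → PE p m y0 → PW p 70 S := fun m hm hy =>
    pw_of_pe hna (hy.map e.symm.toMonoidHom) hD hc (by norm_num) (by norm_num) hm
  rw [hcard] at hd
  rcases prime_cases hp hd with rfl | rfl | rfl | rfl | rfl | rfl | rfl | rfl | rfl
  · exact fin 2 (by norm_num) (pe (k := 1) (by decide) ha2 hb2)
  · exact fin 2 (by norm_num) (pe (k := 3) (by decide) ha3 hb3)
  · exact fin 2 (by norm_num) (pe (k := 1) (by decide) ha5 hb5)
  · exact fin 2 (by norm_num) (pe (k := 1) (by decide) ha7 hb7)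
  · exact fin 2 (by norm_num) (pe (k := 1) (by decide) ha11 hb11)
  · exact fin 2 (by norm_num) (pe (k := 1) (by decide) ha13 hb13)
  · exact fin 2 (by norm_num) (pe (k := 1) (by decide) ha17 hb17)
  · exact fin 2 (by norm_num) (pe (k := 1) (by decide) ha23 hb23)
  · exact fin 1 (by norm_num) (IsPE.of_prime orderOf_y0).pe

end Cfsg.Agent.H801.Pw.FiTF
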